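/-
Fischer's theorem: a class of involutions whose products are `p`-elements lies in a coset of `O_p(G)`.
-/
import Cfsg.Agent.Lib.BS.Main
import Cfsg.Agent.Lib.G.Coprime
import Cfsg.Agent.Lib.ThreeT.Width

set_option autoImplicit false

namespace CA.BS

open Cfsg Subgroup CA

universe u

variable {G : Type*} [Group G] {p : ℕ} {d e f t a b : G}

/-- products of conjugates of the involution `d` are `p`-elements -/
structure PP (p : ℕ) (d : G) : Prop where
  d2 : d * d = 1
  d1 : d ≠ 1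
  prod : ∀ a, IsConj d a → ∀ b, IsConj d b → ∃ k, (a * b) ^ p ^ k = 1

theorem sq_of_isConj (hd : d * d = 1) (h : IsConj d a) : a * a = 1 := by
  obtain ⟨g, rfl⟩ := isConj_iff.1 h
  exact Inv.conj_mul_self hd g

theorem isConj_cj (h : IsConj d a) (g : G) : IsConj d (g * a * g⁻¹) := h.trans (isConj_iff.2 ⟨g, rfl⟩)

theorem PP.of_isConj (h : PP p d) (ha : IsConj d a) : PP p a :=
  ⟨sq_of_isConj h.d2 ha, fun e => h.d1 (by rw [e] at ha; simpa using ha),
    fun x hx y hy => h.prod x (ha.trans hx) y (ha.trans hy)⟩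

theorem PP.sub (h : PP p d) {H : Subgroup G} (hd : d ∈ H) : PP p (⟨d, hd⟩ : H) :=
  ⟨Subtype.ext h.d2, fun e => h.d1 (congrArg Subtype.val e), fun x hx y hy => by
    obtain ⟨k, hk⟩ := h.prod x (H.subtype.map_isConj hx) y (H.subtype.map_isConj hy)
    exact ⟨k, Subtype.ext hk⟩⟩

theorem PP.map (h : PP p d) {G' : Type*} [Group G'] (π : G →* G') (hπ : Function.Surjective π)
    (h1 : π d ≠ 1) : PP p (π d) :=
  ⟨by rw [← map_mul, h.d2, map_one], h1, fun x hx y hy => by
    obtain ⟨g, rfl⟩ := isConj_iff.1 hx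
    obtain ⟨g', rfl⟩ := isConj_iff.1 hy
    obtain ⟨g, rfl⟩ := hπ g
    obtain ⟨g', rfl⟩ := hπ g'
    obtain ⟨k, hk⟩ := h.prod _ (isConj_cj (IsConj.refl d) g) _ (isConj_cj (IsConj.refl d) g')
    exact ⟨k, by simpa using congrArg π hk⟩⟩

theorem PP.exists_conj (h : PP p d) (ho : Odd p) (ha : IsConj d a) (hb : IsConj d b) :
    ∃ k : ℤ, (a * b) ^ k * a * ((a * b) ^ k)⁻¹ = b := by
  obtain ⟨k, hk⟩ := h.prod a ha b hb
  exact Inv.conj_of_odd_pow (sq_of_isConj h.d2 ha) (sq_of_isConj h.d2 hb) ho.pow hk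

theorem eq_of_sq_eq {x y : G} {m n : ℕ} (hm : Odd m) (hn : Odd n) (hx : x ^ m = 1) (hy : y ^ n = 1)
    (h : x * x = y * y) : x = y := by
  obtain ⟨k, hk⟩ := hm.mul hn
  have h1 : x ^ (2 * k + 1) = 1 := by rw [← hk, pow_mul, hx, one_pow]
  have h2 : y ^ (2 * k + 1) = 1 := by rw [← hk, mul_comm, pow_mul, hy, one_pow]
  rw [pow_succ, pow_mul, pow_two] at h1 h2
  rw [h] at h1
  exact mul_left_cancel (h1.trans h2.symm)

theorem PP.eq_of_conj (h : PP p d) (ho : Odd p) (he : IsConj d e) (ha : IsConj d a) (hb : IsConj d b)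
    (h1 : a * e * a = b * e * b) : a = b := by
  obtain ⟨k, hk⟩ := h.prod e he a ha
  obtain ⟨l, hl⟩ := h.prod e he b hb
  refine mul_left_cancel (eq_of_sq_eq ho.pow ho.pow hk hl ?_)
  rw [mul_assoc, ← mul_assoc a, h1]; group

theorem PP.exists_mid (h : PP p d) (ho : Odd p) (ht : t * t = 1) (he : IsConj d e) :
    ∃ f, IsConj d f ∧ Commute f t ∧ f * e * f = t * e * t := by
  have he' : IsConj d (t * e * t) := by
    have := isConj_cj he t; rwa [Inv.inv_eq_self ht] at this
  have e2 := sq_of_isConj h.d2 he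
  have e2' := sq_of_isConj h.d2 he'
  obtain ⟨k, hk⟩ := h.prod e he _ he'
  obtain ⟨m, hm⟩ := (ho.pow : Odd (p ^ k))
  have hx1 : t * (e * (t * e * t)) * t⁻¹ = (e * (t * e * t))⁻¹ := by
    rw [mul_inv_rev, Inv.inv_eq_self e2, Inv.inv_eq_self e2', Inv.inv_eq_self ht]
    simp only [mul_assoc, ht, mul_one]
  have hx2 := Inv.conj_mul_left e2 e2'
  have hx3 : t * e * t = e * (e * (t * e * t)) := (Inv.mul_mul_cancel e2 _).symm
  generalize e * (t * e * t) = x at hk hx1 hx2 hx3
  rw [hm] at hk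
  have hy : x ^ (m + 1) * x ^ (m + 1) = x := by
    rw [← pow_add, show m + 1 + (m + 1) = 2 * m + 1 + 1 by ring, pow_succ, hk, one_mul]
  have hy1 : t * x ^ (m + 1) * t⁻¹ = (x ^ (m + 1))⁻¹ := by rw [← conj_pow, hx1, inv_pow]
  have hy2 : e * x ^ (m + 1) * e⁻¹ = (x ^ (m + 1))⁻¹ := by rw [← conj_pow, hx2, inv_pow]
  have hy3 : (x ^ (m + 1)) ^ (2 * m + 1) = 1 := by rw [← pow_mul, mul_comm, pow_mul, hk, one_pow]
  generalize x ^ (m + 1) = y at hy hy1 hy2 hy3
  subst hy
  have f2 : (e * y) * (e * y) = 1 := by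
    calc (e * y) * (e * y) = (e * y * e⁻¹) * (e * e) * y := by group
      _ = 1 := by rw [hy2, e2]; group
  refine ⟨e * y, ?_, ?_, ?_⟩
  · obtain ⟨j, hj⟩ := Inv.conj_of_odd_pow e2 f2 (n := 2 * m + 1) (odd_two_mul_add_one m)
      (by rw [Inv.mul_mul_cancel e2, hy3])
    exact he.trans (isConj_iff.2 ⟨_, hj⟩)
  · have : t * (e * y) * t⁻¹ = e * y := by
      calc t * (e * y) * t⁻¹ = (t * e * t⁻¹) * (t * y * t⁻¹) := by group
        _ = e * y := by rw [hy1, Inv.inv_eq_self ht, hx3]; group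
    rw [Commute, SemiconjBy]
    nth_rewrite 1 [← this]
    group
  · rw [hx3, mul_assoc (e * y), Inv.mul_mul_cancel e2, mul_assoc]

theorem card_orbit (R : Subgroup G) (d : G) :
    {y | ∃ r ∈ R, y = r * d * r⁻¹}.ncard = (𝐂[d]).relIndex R := by
  have h := MulAction.index_stabilizer (R.map (ConjAct.toConjAct (G := G)).toMonoidHom) d
  have e1 : MulAction.orbit (R.map (ConjAct.toConjAct (G := G)).toMonoidHom) d =
      {y | ∃ r ∈ R, y = r * d * r⁻¹} := by
    ext y
    constructor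
    · rintro ⟨⟨_, r, hr, rfl⟩, rfl⟩
      exact ⟨r, hr, rfl⟩
    · rintro ⟨r, hr, rfl⟩
      exact ⟨⟨_, r, hr, rfl⟩, rfl⟩
  rw [← e1, ← h, relIndex]
  refine (index_comap_of_surjective _ (f := (R.equivMapOfInjective _ ConjAct.toConjAct.injective).toMonoidHom)
    (MulEquiv.surjective _)).symm.trans ?_
  congr 1
  ext r
  simp only [mem_comap, MulAction.mem_stabilizer_iff, mem_subgroupOf, mem_centralizer_singleton_iff]
  exact mul_inv_eq_iff_eq_mul

theorem fischer_aux (hp : p.Prime) (hp2 : p ≠ 2) (n : ℕ) : ∀ {G : Type u} [Group G] [Finite G] {d : G},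
    Nat.card G ≤ n → PP p d → ∀ a, IsConj d a → ∀ b, IsConj d b → a * b ∈ pCore p G := by
  have := Fact.mk hp
  have ho := hp.odd_of_ne_two hp2
  induction n with
  | zero => intro G _ _ d h; exact absurd h (not_le.2 Nat.card_pos)
  | succ n ih =>
  intro G _ _ d hn h
  have ihs : ∀ H : Subgroup G, H ≠ ⊤ → ∀ a ∈ H, ∀ b ∈ H, IsConj d a → IsConj d b → a * b ∈ Core.oP p H := by
    intro H hH a ha b hb ca cb
    have h1 : Nat.card H < Nat.card G := by
      rw [← card_top (G := G)]; exact card_lt_of_lt' (lt_top_iff_ne_top.2 hH)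
    obtain ⟨k, hk⟩ := h.exists_conj ho ca cb
    exact Core.mem_oP.2 ⟨mul_mem ha hb, ih (by omega) ((h.of_isConj ca).sub ha) ⟨a, ha⟩ (IsConj.refl _) ⟨b, hb⟩
      (isConj_iff.2 ⟨⟨_, zpow_mem (mul_mem ha hb) k⟩, Subtype.ext hk⟩)⟩
  have ihq : ∀ (N : Subgroup G) [N.Normal], N ≠ ⊥ → d ∉ N → ∀ a, IsConj d a → ∀ b, IsConj d b →
      a * b ∈ (pCore p (G ⧸ N)).comap (QuotientGroup.mk' N) := by
    intro N _ hN hd a ca b cb
    have h1 : Nat.card (G ⧸ N) < Nat.card G := by
      rw [card_eq_card_quotient_mul_card_subgroup N]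
      exact lt_mul_of_one_lt_right Nat.card_pos (N.one_lt_card_iff_ne_bot.2 hN)
    rw [mem_comap, map_mul]
    exact ih (by omega) (h.map _ (QuotientGroup.mk'_surjective N) (by simpa using hd)) _
      ((QuotientGroup.mk' N).map_isConj ca) _ ((QuotientGroup.mk' N).map_isConj cb)
  have hdp : ∀ k, d ^ p ^ k ≠ 1 := fun k hk =>
    h.d1 (Inv.eq_one_of_pow_coprime (show d ^ 2 = 1 by rw [pow_two, h.d2]) hk
      (Nat.Coprime.pow_right _ ((Nat.coprime_primes Nat.prime_two hp).2 hp2.symm)))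
  by_cases hO : pCore p G = ⊥
  swap
  · intro a ca b cb
    have := ihq _ hO (fun hd => by obtain ⟨k, hk⟩ := Core.exists_pow_of_mem_pCore hd; exact hdp k hk) a ca b cb
    rwa [Core.pCore_quotient_pCore, MonoidHom.comap_bot, QuotientGroup.ker_mk'] at this
  have hcl : (closure (conjugatesOf d)).Normal := Core.closure_normal_of_conj fun g x hx => isConj_cj hx g
  by_cases hG : closure (conjugatesOf d) = ⊤
  swap
  · intro a ca b cb
    exact Core.oP_le_pCore_of_normal _ (ihs _ hG a (subset_closure ca) b (subset_closure cb) ca cb)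
  by_cases hD : ∀ e, IsConj d e → e = d
  · intro a ca b cb
    rw [hD a ca, hD b cb, h.d2]; exact one_mem _
  push Not at hD
  obtain ⟨e0, ce0, hne0⟩ := hD
  exfalso
  have hde : d * e0 ≠ 1 := fun e => hne0 (by rw [← Inv.mul_mul_cancel h.d2 e0, e, mul_one])
  -- products do not lie in a common `p`-subgroup
  have nop : ∀ R : Subgroup G, IsPGroup p R → ¬ ∀ a, IsConj d a → ∀ b, IsConj d b → a * b ∈ R := by
    intro R hR hh
    have h1 : closure (TT.prods (conjugatesOf d)) ≤ pCore p G := by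
      refine Core.le_pCore (Core.closure_normal_of_conj fun g => TT.prods_conj fun x hx => isConj_cj hx g)
        (hR.to_le ((closure_le _).2 ?_))
      rintro _ ⟨a, ca, b, cb, rfl⟩
      exact hh a ca b cb
    rw [hO] at h1
    exact hde (mem_bot.1 (h1 (subset_closure ⟨d, IsConj.refl d, e0, ce0, rfl⟩)))
  -- `d` normalizes a Sylow `p`-subgroup
  obtain ⟨R, hR, hdR, hR'⟩ : ∃ R : Subgroup G, IsPGroup p R ∧ d ∈ 𝐍(R) ∧ ¬ p ∣ R.index := by
    obtain ⟨R, ⟨hR, hdR⟩, hmax⟩ := Set.exists_max_image {R : Subgroup G | IsPGroup p R ∧ d ∈ 𝐍(R)}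
      (fun R => Nat.card R) (Set.toFinite _) ⟨⊥, IsPGroup.of_bot, by simp⟩
    have hmax' : ∀ T : Subgroup G, IsPGroup p T → d ∈ 𝐍(T) → R ≤ T → T = R := fun T h1 h2 h3 =>
      (eq_of_le_of_card_ge h3 (hmax T ⟨h1, h2⟩)).symm
    have hR1 : R ≠ ⊥ := by
      rintro rfl
      obtain ⟨k, hk⟩ := h.prod d (IsConj.refl d) e0 ce0
      have := hmax' (zpowers (d * e0)) (Core.isPGroup_zpowers hk) (by
        rw [mem_normalizer_iff_cj, cj_zpowers, Inv.conj_mul_left h.d2 (sq_of_isConj h.d2 ce0), zpowers_inv])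
        bot_le
      exact hde (zpowers_eq_bot.1 this)
    have hN : 𝐍(R) ≠ ⊤ := fun e => hR1 (eq_bot_iff.2 (hO ▸ Core.le_pCore (normalizer_eq_top_iff.1 e) hR))
    have hO' : Core.oP p 𝐍(R) = R := hmax' _ (Core.oP_isPGroup _ _)
      ((Core.oP_normalIn p 𝐍(R)).2 hdR) (Core.le_oP ⟨le_normalizer, le_rfl⟩ hR)
    refine ⟨R, hR, hdR, ?_⟩
    have : SylowIn p R (⊤ ⊓ 𝐍(R)) := by
      rw [top_inf_eq]
      refine sylowIn_mk hp le_normalizer hR (Core.not_dvd_relIndex_of_max hR le_normalizer fun T h1 h2 h3 => ?_)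
      refine hmax' T h1 ?_ h2
      apply mem_normalizer_of_cj_le
      rw [cj_le_iff']
      intro t ht
      have h4 := ihs _ hN _ (mul_mem (mul_mem (inv_mem (h3 ht)) hdR) (h3 ht)) d hdR
        (by simpa using isConj_cj (IsConj.refl d) t⁻¹) (IsConj.refl d)
      rw [hO'] at h4
      have := mul_mem ht (h2 h4)
      rwa [Inv.inv_eq_self h.d2, ← show t * (t⁻¹ * d * t * d) = d * t * d by group]
    simpa using (sylowIn_of_sylowIn_norm this).not_dvd hp
  -- the class size is not a power of `p`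
  have notpow : ∀ k, (𝐂[d]).index ≠ p ^ k := by
    intro k hk
    have h1 := exists_mul_of_coprime_relIndex (M := ⊤) (A := R) (B := 𝐂[d]) le_top le_top (by
      rw [relIndex_top_right, relIndex_top_right, hk]
      exact Nat.Coprime.pow_right _ ((hp.coprime_iff_not_dvd.2 hR').symm))
    have h2 : ∀ a, IsConj d a → d * a ∈ R := by
      intro a ca
      obtain ⟨g, rfl⟩ := isConj_iff.1 ca
      obtain ⟨r, hr, c, hc, rfl⟩ := h1 g (mem_top g)
      rw [show d * (r * c * d * (r * c)⁻¹) = d * r * (c * d * c⁻¹) * r⁻¹ by group,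
        mem_centralizer_singleton_iff.1 hc, mul_inv_cancel_right]
      refine mul_mem ?_ (inv_mem hr)
      have := (mem_normalizer_iff.1 hdR r).1 hr
      rwa [Inv.inv_eq_self h.d2] at this
    refine nop R hR fun a ca b cb => ?_
    have := mul_mem (inv_mem (h2 a ca)) (h2 b cb)
    rwa [mul_inv_rev, mul_assoc, inv_mul_cancel_left, Inv.inv_eq_self (sq_of_isConj h.d2 ca)] at this
  have hcard : {y | IsConj d y}.ncard = (𝐂[d]).index := by
    rw [← relIndex_top_right, ← card_orbit]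
    congr 1
    ext y
    simp [isConj_iff, eq_comm]
  by_cases hT : ∃ t : G, t * t = 1 ∧ t ≠ 1 ∧ ¬ IsConj d t
  · obtain ⟨t, t2, t1, td⟩ := hT
    have nc : ∀ t : G, t * t = 1 → t ≠ 1 → ¬ IsConj d t → 𝐂[t] ≠ ⊤ := by
      intro t t2 t1 td hc
      have hc' : ∀ g : G, Commute g t := fun g => mem_centralizer_singleton_iff.1 (hc ▸ mem_top g)
      have : (zpowers t).Normal := ⟨fun n hn g => by
        obtain ⟨k, rfl⟩ := hn
        rw [((hc' g).zpow_right k).eq, mul_inv_cancel_right]; exact ⟨k, rfl⟩⟩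
      have h1 := ihq (zpowers t) (by simpa using t1) fun hd => by
        rcases TT.mem_zpowers_invol t2 hd with e | e
        · exact h.d1 e
        · exact td (e ▸ IsConj.refl d)
      refine nop (closure (TT.prods (conjugatesOf d))) (Core.isPGroup_closure_of_nilpotent hp
        (Core.nilpotent_of_pow_central hp fun x hx => ?_) ?_)
        fun a ca b cb => subset_closure ⟨a, ca, b, cb, rfl⟩
      · have h2 : x ∈ (pCore p (G ⧸ zpowers t)).comap (QuotientGroup.mk' (zpowers t)) := by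
          refine (closure_le _).2 ?_ hx
          rintro _ ⟨a, ca, b, cb, rfl⟩
          exact h1 a ca b cb
        obtain ⟨k, hk⟩ := Core.exists_pow_of_mem_pCore h2
        rw [← map_pow, QuotientGroup.mk'_apply, QuotientGroup.eq_one_iff] at hk
        obtain ⟨j, hj⟩ := hk
        exact ⟨k, fun y _ => by rw [← hj]; exact ((hc' y).zpow_right j).symm⟩
      · rintro _ ⟨a, ca, b, cb, rfl⟩
        exact h.prod a ca b cb
    have cnt : ∀ t : G, t * t = 1 → t ≠ 1 → ¬ IsConj d t → ∀ f, IsConj d f → Commute f t →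
        ∃ k, {y | IsConj d y ∧ Commute y t}.ncard = p ^ k := by
      intro t t2 t1 td f cf hf
      have e1 : {y | IsConj d y ∧ Commute y t} = {y | ∃ r ∈ Core.oP p 𝐂[t], y = r * f * r⁻¹} := by
        ext y
        constructor
        · rintro ⟨cy, hy⟩
          obtain ⟨k, hk⟩ := h.exists_conj ho cf cy
          exact ⟨_, zpow_mem (ihs _ (nc t t2 t1 td) f (mem_centralizer_singleton_iff.2 hf) y
            (mem_centralizer_singleton_iff.2 hy) cf cy) k, hk.symm⟩
        · rintro ⟨r, hr, rfl⟩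
          have hr' : Commute r t := mem_centralizer_singleton_iff.1 (Core.oP_le _ _ hr)
          exact ⟨isConj_cj cf r, (hr'.mul_left hf).mul_left hr'.inv_left⟩
      rw [e1, card_orbit]
      exact (Core.oP_isPGroup p 𝐂[t]).index _
    obtain ⟨f0, cf0, hf0, -⟩ := h.exists_mid ho t2 (IsConj.refl d)
    have f02 := sq_of_isConj h.d2 cf0
    have s2 : (t * f0) * (t * f0) = 1 := by rw [← pow_two]; exact (Inv.commute_iff_sq t2 f02).1 hf0.symm
    have s1 : t * f0 ≠ 1 := fun e => td (by rw [← Inv.mul_cancel_right f02 t, e, one_mul]; exact cf0)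
    have sd : ¬ IsConj d (t * f0) := fun c => by
      obtain ⟨k, hk⟩ := h.prod _ c _ cf0
      rw [Inv.mul_cancel_right f02] at hk
      exact t1 (Inv.eq_one_of_pow_coprime (show t ^ 2 = 1 by rw [pow_two, t2]) hk
        (Nat.Coprime.pow_right _ ((Nat.coprime_primes Nat.prime_two hp).2 hp2.symm)))
    obtain ⟨k1, hk1⟩ := cnt t t2 t1 td f0 cf0 hf0
    obtain ⟨k2, hk2⟩ := cnt _ s2 s1 sd f0 cf0 (hf0.mul_right (Commute.refl f0))
    have hw : ∀ f : {y | IsConj d y ∧ Commute y t}, ∃ w : G, Commute w t ∧ w * f0 * w⁻¹ = f := by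
      rintro ⟨f, cf, hf⟩
      obtain ⟨k, hk⟩ := h.exists_conj ho cf0 cf
      exact ⟨_, (hf0.mul_left hf).zpow_left k, hk⟩
    choose w hw1 hw2 using hw
    have hcm : ∀ (f : {y | IsConj d y ∧ Commute y t}) (e : G),
        Commute e (t * f0) ↔ (f : G) * (w f * e * (w f)⁻¹) * f = t * (w f * e * (w f)⁻¹) * t := by
      intro f e
      have f2 := sq_of_isConj h.d2 f.2.1
      rw [← TT.commute_conj_iff (w f), show w f * (t * f0) * (w f)⁻¹ = (w f * t * (w f)⁻¹) * (w f * f0 * (w f)⁻¹)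
        by group, hw2, (hw1 f).eq, mul_inv_cancel_right]
      generalize w f * e * (w f)⁻¹ = x
      constructor
      · intro hc
        calc (f : G) * x * f = t * ((t * f) * x) * f := by simp only [mul_assoc, Inv.mul_mul_cancel t2]
          _ = _ := by rw [← hc.eq]; simp only [mul_assoc, f2, mul_one]
      · intro hc
        rw [Commute, SemiconjBy]
        calc x * (t * f) = t * (t * x * t) * f := by simp only [mul_assoc, Inv.mul_mul_cancel t2]
          _ = _ := by rw [← hc]; simp only [mul_assoc, f2, mul_one]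
    let F : {y | IsConj d y ∧ Commute y t} × {y | IsConj d y ∧ Commute y (t * f0)} → {y | IsConj d y} :=
      fun x => ⟨w x.1 * x.2 * (w x.1)⁻¹, isConj_cj x.2.2.1 _⟩
    have hF : Function.Bijective F := by
      constructor
      · rintro ⟨f, e⟩ ⟨f', e'⟩ hh
        have h1 : w f * e * (w f)⁻¹ = w f' * e' * (w f')⁻¹ := congrArg Subtype.val hh
        have h2 := (hcm f e).1 e.2.2
        have h3 := (hcm f' e').1 e'.2.2
        rw [← h1, ← h2] at h3
        obtain rfl : f = f' := Subtype.ext (h.eq_of_conj ho (isConj_cj e.2.1 _) f.2.1 f'.2.1 h3.symm)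
        simp only [mul_left_inj, mul_right_inj] at h1
        rw [Subtype.ext h1]
      · rintro ⟨e, ce⟩
        obtain ⟨f, cf, hf, hf'⟩ := h.exists_mid ho t2 ce
        refine ⟨(⟨f, cf, hf⟩, ⟨(w ⟨f, cf, hf⟩)⁻¹ * e * (w ⟨f, cf, hf⟩)⁻¹⁻¹, isConj_cj ce _, ?_⟩), ?_⟩
        · rw [hcm ⟨f, cf, hf⟩]
          simpa [mul_assoc] using hf'
        · apply Subtype.ext
          simp [F, mul_assoc]
    have := Nat.card_eq_of_bijective F hF
    rw [Nat.card_prod, Nat.card_coe_set_eq, Nat.card_coe_set_eq, Nat.card_coe_set_eq, hk1, hk2, hcard,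
      ← pow_add] at this
    exact notpow _ this.symm
  push Not at hT
  have ui : UI G := fun a b a2 a1 b2 b1 hc => by
    obtain ⟨k, hk⟩ := h.prod a (hT a a2 a1) b (hT b b2 b1)
    have := Inv.eq_one_of_pow_coprime ((Inv.commute_iff_sq a2 b2).1 hc) hk
      (Nat.Coprime.pow_right _ ((Nat.coprime_primes Nat.prime_two hp).2 hp2.symm))
    rw [← Inv.mul_mul_cancel a2 b, this, mul_one]
  obtain ⟨P, hP⟩ := brauer_suzuki ui h.d2 h.d1 hG
  obtain ⟨ρ, hρ, -⟩ := exists_rho P hP (Inv.orderOf_eq_two h.d2 h.d1 ▸ orderOf_dvd_natCard d)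
  have hodd : ¬ 2 ∣ Nat.card ρ.ker := fun e => by
    obtain ⟨x, hx⟩ := exists_prime_orderOf_dvd_card' 2 e
    have := hρ x x.2
    rw [Subgroup.orderOf_coe, hx] at this
    exact absurd this (by decide)
  have hall : ∀ g : G, g ∈ ρ.ker ∨ g * d ∈ ρ.ker := by
    intro g
    have hd : ρ d * ρ d = 1 := by rw [← map_mul, h.d2, map_one]
    have : g ∈ closure (conjugatesOf d) := hG ▸ mem_top g
    simp only [MonoidHom.mem_ker, map_mul]
    induction this using closure_induction with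
    | mem x hx =>
      obtain ⟨y, rfl⟩ := isConj_iff.1 hx
      right; simpa using hd
    | one => left; exact map_one ρ
    | mul x y _ _ hx hy =>
      rw [map_mul]
      rcases hx with hx | hx <;> rcases hy with hy | hy
      · left; rw [hx, hy, mul_one]
      · right; rw [hx, one_mul, hy]
      · right; rw [hy, mul_one, hx]
      · left; rw [mul_right_cancel (hx.trans hd.symm), mul_right_cancel (hy.trans hd.symm), hd]
    | inv x _ hx =>
      rw [map_inv]
      rcases hx with hx | hx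
      · left; rw [hx, inv_one]
      · right; rw [mul_right_cancel (hx.trans hd.symm), inv_mul_cancel]
  have hrel : (𝐂[d]).index = (𝐂[d]).relIndex ρ.ker := by
    rw [← hcard, ← card_orbit]
    congr 1
    ext y
    constructor
    · intro hy
      obtain ⟨g, rfl⟩ := isConj_iff.1 hy
      rcases hall g with e | e
      · exact ⟨g, e, rfl⟩
      · exact ⟨_, e, by group⟩
    · rintro ⟨r, -, rfl⟩
      exact isConj_cj (IsConj.refl d) r
  refine notpow _ (Nat.eq_prime_pow_of_unique_prime_dvd index_ne_zero_of_finite fun {q} hq hdvd => ?_)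
  by_contra hqp
  have hc : CopAct ρ.ker (zpowers d) := copAct_zpowers (le_normalizer_of_normal (mem_top d)) (by
    rw [Inv.orderOf_eq_two h.d2 h.d1]
    exact ((Nat.prime_two.coprime_iff_not_dvd).2 hodd).symm)
  obtain ⟨Q, hQ, hn⟩ := hc.exists_sylowIn q
  have hQC : Q ≤ 𝐂[d] := by
    intro x hx
    obtain ⟨k, hk⟩ := h.prod _ (isConj_cj (IsConj.refl d) x) d (IsConj.refl d)
    have h1 : x * d * x⁻¹ * d ∈ Q := by
      have := (mem_normalizer_iff.1 (zpowers_le.1 hn) x⁻¹).1 (inv_mem hx)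
      rw [Inv.inv_eq_self h.d2] at this
      simpa [mul_assoc] using mul_mem hx this
    obtain ⟨l, hl⟩ := Core.exists_pow_of_mem (hQ.isPGroup hq) h1
    have := Inv.eq_one_of_pow_coprime hk hl (Nat.Coprime.pow _ _ ((Nat.coprime_primes hp hq).2 (Ne.symm hqp)))
    rw [mem_centralizer_singleton_iff, ← mul_inv_eq_iff_eq_mul, ← mul_inv_eq_one, Inv.inv_eq_self h.d2, this]
  rw [hrel] at hdvd
  exact hQ.not_dvd hq (hdvd.trans (relIndex_dvd_of_le_left _ hQC))

theorem fischer [Finite G] (hp : p.Prime) (hp2 : p ≠ 2) (d : G) (hd : orderOf d = 2)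
    (hprod : ∀ a ∈ conjugatesOf d, ∀ b ∈ conjugatesOf d, ∃ k : ℕ, orderOf (a * b) = p ^ k) :
    ∀ a ∈ conjugatesOf d, ∀ b ∈ conjugatesOf d, a * b ∈ pCore p G := fun a ha b hb =>
  fischer_aux hp hp2 _ le_rfl ⟨Inv.mul_self_of_orderOf hd, Inv.ne_one_of_orderOf hd, fun x hx y hy => by
    obtain ⟨k, hk⟩ := hprod x hx y hy
    exact ⟨k, by rw [← hk, pow_orderOf_eq_one]⟩⟩ a ha b hb

end CA.BS
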